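import Cfsg.Agent.S0907
import Cfsg.Agent.S4665
import Cfsg.Agent.CharactersDeep.ColumnBessel
import Cfsg.Agent.Characters.SchurBound
import Cfsg.Agent.Blocks.PrincipalSection
import Cfsg.Agent.H633.Unique

/-!
# S4879, row `Th`, `p = 7` (helper642): `k(B₀) ≥ 10` from degrees

* `exists_val` : all nonidentity elements of the subgroup `P` of order `n` conjugate to `x`: `χ(x)` is an
  integer congruent to `χ(1)` modulo `n`;
* `val_eq` : it is determined by `χ(1)` if `4 |C(x)| < ...`;
* `sum_mul` : the orthogonality relation of the principal block for `1, x`;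
* `known_lt` : eight (or any number `m`) of members of the principal block with known degrees and values:
  `m + 2 ≤ k(B₀)` if the defect of the relation is not a product `d v`, `d ∣ |G|`.
-/

set_option autoImplicit false

open Cfsg Subgroup
open scoped ComplexConjugate

namespace Cfsg.Agent.H642.Lb

open Cfsg.Agent.Blocks.Basic

universe u

variable {G : Type u} [Group G]

theorem exists_val [Finite G] (P : Subgroup G) {n : ℕ} (hn : Nat.card P = n) (h2 : 2 ≤ n) {x : G}
    (hconj : ∀ y ∈ P, y ≠ 1 → IsConj x y) (χ : IrrCharacter G) :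
    ∃ v : ℤ, (χ : G → ℂ) x = v ∧ (n : ℤ) ∣ (charDegree (χ : G → ℂ) : ℤ) - v := by
  classical
  have := Fintype.ofFinite G
  have := Fintype.ofFinite P
  obtain ⟨a, ha⟩ := S4665.sum_subgroup P χ
  have hd : (χ : G → ℂ) 1 = (charDegree (χ : G → ℂ) : ℂ) := irr_one_eq_charDegree χ.2
  have hval : ∀ y : P, y ∈ Finset.univ.erase (1 : P) → (χ : G → ℂ) y = (χ : G → ℂ) x := by
    intro y hy
    have h1 : (y : G) ≠ 1 := fun e => (Finset.mem_erase.1 hy).1 (Subtype.ext e)
    obtain ⟨c, hc⟩ := isConj_iff.1 (hconj y y.2 h1)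
    rw [← hc]
    exact Characters.Core.isIrr_isClassFunction χ.2 _ _
  have hcard : (Finset.univ.erase (1 : P)).card = n - 1 := by
    rw [Finset.card_erase_of_mem (Finset.mem_univ _), Finset.card_univ, ← Nat.card_eq_fintype_card, hn]
  rw [← Finset.add_sum_erase _ _ (Finset.mem_univ (1 : P)), Finset.sum_congr rfl hval, Finset.sum_const,
    hcard, nsmul_eq_mul, hn] at ha
  have e1 : ((1 : P) : G) = 1 := rfl
  rw [e1, hd] at ha
  have hn1 : ((n - 1 : ℕ) : ℂ) ≠ 0 := by
    have : n - 1 ≠ 0 := by omega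
    exact_mod_cast this
  have hq : (χ : G → ℂ) x = ((((n : ℚ) * a - charDegree (χ : G → ℂ)) / ((n - 1 : ℕ) : ℚ) : ℚ) : ℂ) := by
    push_cast
    rw [eq_div_iff hn1]
    linear_combination ha
  obtain ⟨v, hv⟩ := Characters.SchurBound.exists_int_of_rat
    (CharactersDeep.AChar.isIntegral_isCharacter (irr_isCharacter χ.2) x) hq
  refine ⟨v, hv, (a : ℤ) - v, ?_⟩
  rw [hv] at ha
  have h3 : (charDegree (χ : G → ℂ) : ℤ) + ((n - 1 : ℕ) : ℤ) * v = n * a := by exact_mod_cast ha
  have h4 : ((n - 1 : ℕ) : ℤ) = (n : ℤ) - 1 := by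
    rw [Nat.cast_sub (by omega), Nat.cast_one]
  rw [h4] at h3
  linear_combination h3

/-- the value is small -/
theorem sq_le [Finite G] {x : G} {χ : IrrCharacter G} {v : ℤ} (hv : (χ : G → ℂ) x = v) {c : ℕ}
    (hc : Nat.card (centralizer ({x} : Set G)) = c) : v ^ 2 ≤ c := by
  have h1 := Cfsg.Agent.CharactersDeep.ColumnBessel.sum_norm_sq_le {χ} x
  rw [Finset.sum_singleton, hv, hc] at h1
  have h2 : ‖(v : ℂ)‖ ^ 2 = ((v ^ 2 : ℤ) : ℝ) := by
    rw [Complex.norm_intCast, sq_abs]
    push_cast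
    rfl
  rw [h2] at h1
  exact_mod_cast h1

/-- the orthogonality relation of the principal block -/
theorem sum_mul [Finite G] {p : ℕ} [Fact p.Prime] {M : Ideal AlgInt} (hM : IsPModular p M) {x : G}
    (hx : p ∣ orderOf x) (v : IrrCharacter G → ℤ) (hv : ∀ χ : IrrCharacter G, (χ : G → ℂ) x = v χ)
    (s : Finset (IrrCharacter G)) (hs : (s : Set (IrrCharacter G)) = principalBlock M G) :
    ∑ χ ∈ s, (charDegree (χ : G → ℂ) : ℤ) * v χ = 0 := by
  have hp : p.Prime := Fact.out
  have hMp := Cfsg.Agent.Blocks.Local.isPrime_of_isPModular hM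
  have h1 := S0907.result p M hM (principalBlock M G) Blocks.PrincipalSection.isPBlock_principalBlock
    1 x (by rw [orderOf_one]; exact hp.one_lt.ne' ∘ Nat.dvd_one.1) hx
  rw [← hs, finsum_mem_coe_finset] at h1
  have h2 : ∑ χ ∈ s, (((charDegree (χ : G → ℂ) : ℤ) * v χ : ℤ) : ℂ) = 0 := by
    rw [← h1]
    refine Finset.sum_congr rfl fun χ _ => ?_
    rw [hv, irr_one_eq_charDegree χ.2, map_intCast]
    push_cast
    rfl
  exact_mod_cast h2

/-- **The count.** -/
theorem card_ge [Finite G] {p : ℕ} [Fact p.Prime] {M : Ideal AlgInt} (hM : IsPModular p M) {x : G}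
    (hx : p ∣ orderOf x) (v : IrrCharacter G → ℤ) (hv : ∀ χ : IrrCharacter G, (χ : G → ℂ) x = v χ)
    {m : ℕ} (c : Fin m → IrrCharacter G) (hinj : Function.Injective c)
    (hmem : ∀ i, c i ∈ principalBlock M G)
    (hne : ∑ i, (charDegree (c i : G → ℂ) : ℤ) * v (c i) ≠ 0)
    (hno : ∀ ψ : IrrCharacter G, (charDegree (ψ : G → ℂ) : ℤ) * v ψ ≠
      - ∑ i, (charDegree (c i : G → ℂ) : ℤ) * v (c i)) :
    m + 2 ≤ Nat.card (principalBlock M G) := by
  classical
  have := Characters.Core.finite_irr (G := G)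
  have hfin : (principalBlock M G).Finite := Set.toFinite _
  set s := hfin.toFinset with hs
  have hsB : (s : Set (IrrCharacter G)) = principalBlock M G := hfin.coe_toFinset
  have h0 := sum_mul hM hx v hv s hsB
  set K := Finset.univ.image c with hK
  have hKs : K ⊆ s := by
    intro ψ hψ
    obtain ⟨i, -, rfl⟩ := Finset.mem_image.1 hψ
    exact hfin.mem_toFinset.2 (hmem i)
  have hKc : K.card = m := by
    rw [hK, Finset.card_image_of_injective _ hinj, Finset.card_univ, Fintype.card_fin]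
  have hKsum : ∑ χ ∈ K, (charDegree (χ : G → ℂ) : ℤ) * v χ =
      ∑ i, (charDegree (c i : G → ℂ) : ℤ) * v (c i) := by
    rw [hK, Finset.sum_image fun a _ b _ h => hinj h]
  rw [← Finset.sum_sdiff hKs, hKsum] at h0
  have hcs : Nat.card (principalBlock M G) = s.card := by
    rw [hs, Nat.card_coe_set_eq, Set.ncard_eq_toFinset_card _ hfin]
  rw [hcs]
  by_contra hlt
  push Not at hlt
  have h1 : (s \ K).card ≤ 1 := by
    rw [Finset.card_sdiff_of_subset hKs, hKc]
    omega
  rcases Nat.le_one_iff_eq_zero_or_eq_one.1 h1 with h2 | h2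
  · rw [Finset.card_eq_zero.1 h2, Finset.sum_empty, zero_add] at h0
    exact hne h0
  · obtain ⟨ψ, hψ⟩ := Finset.card_eq_one.1 h2
    rw [hψ, Finset.sum_singleton] at h0
    exact hno ψ (by linarith)

end Cfsg.Agent.H642.Lb
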